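import Cfsg.Agent.H192.Ht.Sol
import Cfsg.Agent.LieClassical.FieldTransfer

/-!
# S3577: assembly (helper192)
-/

set_option autoImplicit false
set_option linter.unusedSectionVars false

namespace Cfsg.Agent.H192.Ht

open Cfsg.Agent.H828.HT

universe u v

section semi

variable {p : ℕ} [Fact p.Prime] {V : Type u} [AddCommGroup V] [Module (ZMod p) V] [Finite V]

/-- multiplications by the units of a field structure -/
noncomputable def mul {F : Type*} [Field F] (e : V ≃+ F) : Fˣ →* (V ≃ₗ[ZMod p] V) where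
  toFun a :=
    { toFun := fun v => e.symm ((a : F) * e v)
      map_add' := fun v w => by rw [map_add, mul_add, map_add]
      map_smul' := fun c v => by
        have h := ZMod.map_smul ((e.symm.toAddMonoidHom).comp ((AddMonoidHom.mulLeft (a : F)).comp e.toAddMonoidHom)) c v
        exact h
      invFun := fun v => e.symm (((a⁻¹ : Fˣ) : F) * e v)
      left_inv := fun v => by simp
      right_inv := fun v => by simp }
  map_one' := by
    apply LinearEquiv.ext
    intro v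
    change e.symm (((1 : Fˣ) : F) * e v) = v
    simp
  map_mul' a b := by
    apply LinearEquiv.ext
    intro v
    change e.symm (((a * b : Fˣ) : F) * e v) = e.symm ((a : F) * e (e.symm ((b : F) * e v)))
    simp [mul_assoc]

theorem mul_apply {F : Type*} [Field F] (e : V ≃+ F) (a : Fˣ) (v : V) :
    (mul (p := p) e a) v = e.symm ((a : F) * e v) := rfl

/-- a semilinear group of dimension one normalises a Singer cycle -/
theorem singer {F : Type*} [Field F] [Finite F] (e : V ≃+ F) :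
    ∃ S : Subgroup (V ≃ₗ[ZMod p] V), IsCyclic S ∧ Nat.card S = Nat.card V - 1 ∧
      ∀ g : V ≃ₗ[ZMod p] V, (∃ (a : F) (φ : F ≃+* F), ∀ v : V, e (g v) = a * φ (e v)) → ∀ s ∈ S, g * s * g⁻¹ ∈ S := by
  refine ⟨(mul e).range, ?_, ?_, ?_⟩
  · exact isCyclic_of_surjective (mul e).rangeRestrict (mul e).rangeRestrict_surjective
  · have hinj : Function.Injective (mul (p := p) e) := by
      intro a b hab
      have h1 : (mul (p := p) e a) (e.symm 1) = (mul (p := p) e b) (e.symm 1) := by rw [hab]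
      rw [mul_apply, mul_apply] at h1
      exact Units.ext (by simpa using h1)
    rw [Nat.card_congr (MonoidHom.ofInjective hinj).toEquiv.symm, Nat.card_congr e.toEquiv]
    have := Fintype.ofFinite F
    classical
    rw [Nat.card_eq_fintype_card, Nat.card_eq_fintype_card, Fintype.card_units]
  · rintro g ⟨a, φ, hg⟩ _ ⟨b, rfl⟩
    refine ⟨Units.map φ.toRingHom.toMonoidHom b, ?_⟩
    rw [eq_mul_inv_iff_mul_eq]
    apply LinearEquiv.ext
    intro v
    apply e.injective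
    change e ((mul (p := p) e (Units.map φ.toRingHom.toMonoidHom b)) (g v)) = e (g ((mul (p := p) e b) v))
    rw [mul_apply, hg, mul_apply, hg]
    simp
    ring

end semi

/-- fields with five elements -/
theorem sl_five (F : Type*) [Field F] [Fintype F] (h : Fintype.card F = 5) :
    Nonempty (Matrix.SpecialLinearGroup (Fin 2) F ≃* Matrix.SpecialLinearGroup (Fin 2) (ZMod 5)) :=
  ⟨Cfsg.Agent.LieClassical.FieldTransfer.slCongr (ZMod.ringEquivOfPrime F Nat.prime_five h).symm⟩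

theorem main (T : Leaves.{u}) (p : ℕ) [Fact p.Prime] {V : Type u} [AddCommGroup V] [Module (ZMod p) V] [Finite V] [Nontrivial V]
    {G : Type v} [Group G] [Finite G] (ρ : G →* (V ≃ₗ[ZMod p] V)) (hρ : Function.Injective ρ)
    (hhalf : ∀ v w : V, v ≠ 0 → w ≠ 0 →
      Nat.card {u : V | ∃ g : G, ρ g v = u} = Nat.card {u : V | ∃ g : G, ρ g w = u})
    (h12 : p ∣ Nat.card G → (∀ v w : V, v ≠ 0 → w ≠ 0 → ∃ g : G, ρ g v = w) ∨
      (∃ (F : Type) (_ : Field F) (_ : Fintype F) (e : V ≃+ F), ∀ g : G, ∃ (a : F) (φ : F ≃+* F), ∀ v : V, e (ρ g v) = a * φ (e v)) ∨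
      (p = 3 ∧ Nat.card V = 81 ∧
        (∃ (F : Type) (_ : Field F) (_ : Fintype F), Fintype.card F = 5 ∧ ∃ S : Subgroup G, S.Normal ∧ Nonempty (S ≃* Matrix.SpecialLinearGroup (Fin 2) F)) ∧
        (∃ v w : V, v ≠ 0 ∧ w ≠ 0 ∧ (¬ ∃ g : G, ρ g v = w) ∧ ∀ u : V, u ≠ 0 → ∃ g : G, ρ g v = u ∨ ρ g w = u) ∧
        ∀ v : V, v ≠ 0 → Nat.card {u : V | ∃ g : G, ρ g v = u} = 40))
    (h40 : ¬ Group.IsSolvable G → ¬ p ∣ Nat.card G → (∀ v : V, v ≠ 0 → ∀ g : G, ρ g v = v → g = 1) ∨
      ((∃ N : Subgroup G, N.Normal ∧ Nonempty (↥N ≃* Matrix.SpecialLinearGroup (Fin 2) (ZMod 5))) ∧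
        ((Module.finrank (ZMod p) V = 2 ∧ (p = 11 ∨ p = 19 ∨ p = 29)) ∨
          (Module.finrank (ZMod p) V = 4 ∧ p = 13)))) :
    (∀ v w : V, v ≠ 0 → w ≠ 0 → ∃ g : G, ρ g v = w) ∨
    (∃ S : Subgroup (V ≃ₗ[ZMod p] V), IsCyclic ↥S ∧ Nat.card ↥S = Nat.card V - 1 ∧ ∀ g : G, ∀ s ∈ S, ρ g * s * (ρ g)⁻¹ ∈ S) ∨
    (∀ v : V, v ≠ 0 → ∀ g : G, ρ g v = v → g = 1) ∨
    (p ≠ 2 ∧ ∃ q : ℕ, Nat.card V = q ^ 2 ∧ Nat.card G = 4 * (q - 1)) ∨
    (Group.IsSolvable G ∧ Nat.card V ∈ ({9, 25, 49, 121, 289, 81} : Set ℕ)) ∨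
    ((∃ N : Subgroup G, N.Normal ∧ Nonempty (↥N ≃* Matrix.SpecialLinearGroup (Fin 2) (ZMod 5))) ∧
      Nat.card V ∈ ({81, 121, 361, 841, 28561} : Set ℕ)) := by
  classical
  by_cases hp : p ∣ Nat.card G
  · rcases h12 hp with h1 | ⟨F, iF, iFt, e, he⟩ | ⟨-, hV, ⟨F, iF, iFt, hF, S, hS, ⟨f⟩⟩, -, -⟩
    · exact Or.inl h1
    · right; left
      obtain ⟨S, h1, h2, h3⟩ := singer (p := p) e
      exact ⟨S, h1, h2, fun g s hs => h3 (ρ g) (he g) s hs⟩
    · right; right; right; right; right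
      obtain ⟨f'⟩ := sl_five F hF
      refine ⟨⟨S, hS, ⟨f.trans f'⟩⟩, ?_⟩
      rw [hV]; norm_num
  by_cases hsol : Group.IsSolvable G
  swap
  · rcases h40 hsol hp with h1 | ⟨h1, h2⟩
    · exact Or.inr (Or.inr (Or.inl h1))
    · right; right; right; right; right
      refine ⟨h1, ?_⟩
      have hV := card_eq_pow (p := p) V
      rcases h2 with ⟨h2, rfl | rfl | rfl⟩ | ⟨h2, rfl⟩
      all_goals rw [hV, h2]; norm_num
  -- the soluble coprime case
  have hcardH : Nat.card ρ.range = Nat.card G := (Nat.card_congr (MonoidHom.ofInjective hρ).toEquiv).symm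
  have hsolH : Group.IsSolvable ρ.range := Group.isSolvable_of_surjective (f := ρ.rangeRestrict) ρ.rangeRestrict_surjective
  obtain ⟨v₀, hv₀⟩ := exists_ne (0 : V)
  have horb : ∀ v : V, Nat.card {u : V | ∃ g : G, ρ g v = u} = Nat.card (MulAction.orbit ρ.range v) := by
    intro v
    refine Nat.card_congr (Equiv.subtypeEquivRight fun u => ?_)
    simp only [MulAction.mem_orbit_iff]
    constructor
    · rintro ⟨g, hg⟩
      exact ⟨⟨ρ g, g, rfl⟩, hg⟩
    · rintro ⟨⟨_, g, rfl⟩, hg⟩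
      exact ⟨g, hg⟩
  have hos : ∀ v : V, Nat.card (MulAction.orbit ρ.range v) * Nat.card (MulAction.stabilizer ρ.range v) =
      Nat.card ρ.range := by
    intro v
    have := Fintype.ofFinite ρ.range
    have h1 := MulAction.card_orbit_mul_card_stabilizer_eq_card_group ρ.range v
    rwa [← Nat.card_eq_fintype_card, ← Nat.card_eq_fintype_card, ← Nat.card_eq_fintype_card] at h1
  have hh : Half ρ.range (Nat.card (MulAction.stabilizer ρ.range v₀)) := by
    intro v hv
    have h1 := hos v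
    have h2 := hos v₀
    rw [← horb, hhalf v v₀ hv hv₀, horb] at h1
    rw [← h2] at h1
    have h3 : 0 < Nat.card (MulAction.orbit ρ.range v₀) :=
      Nat.card_pos_iff.2 ⟨⟨⟨v₀, MulAction.mem_orbit_self v₀⟩⟩, inferInstance⟩
    exact Nat.eq_of_mul_eq_mul_left h3 h1
  generalize Nat.card (MulAction.stabilizer ρ.range v₀) = h at hh
  by_cases h2 : 2 ≤ h
  · rcases sol_coprime T hsolH (by rwa [hcardH]) hh h2 with ⟨S, h3, h4, h5⟩ | ⟨h3, q, h4, h5⟩ | h3
    · exact Or.inr (Or.inl ⟨S, h3, h4, fun g s hs => h5 (ρ g) ⟨g, rfl⟩ s hs⟩)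
    · right; right; right; left
      exact ⟨h3, q, h4, by rw [← hcardH, h5]⟩
    · right; right; right; right; left
      exact ⟨hsol, h3⟩
  · right; right; left
    intro v hv g hg
    have h3 := hh v hv
    have h4 : 0 < Nat.card (MulAction.stabilizer ρ.range v) := Nat.card_pos
    have h5 : Nat.card (MulAction.stabilizer ρ.range v) = 1 := by omega
    have h6 : MulAction.stabilizer ρ.range v = ⊥ := Subgroup.card_eq_one.1 h5
    have h7 : (⟨ρ g, g, rfl⟩ : ρ.range) ∈ MulAction.stabilizer ρ.range v := hg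
    rw [h6, Subgroup.mem_bot] at h7
    apply hρ
    rw [map_one]
    exact congrArg Subtype.val h7

end Cfsg.Agent.H192.Ht
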