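import Cfsg.Agent.H192.Ht.Leaves
import Cfsg.Agent.H662.HT.DOne
import Cfsg.Agent.H662.HT.DTwo
import Cfsg.Agent.H768.HT.Field
import Cfsg.Agent.H813.HT.P2Fin
import Cfsg.Agent.H583.HT.Invol
import Cfsg.Agent.H583.HT.Three
import Cfsg.Agent.H451.HT.SizeOf
import Cfsg.Agent.H450.HT.TwoFive
import Cfsg.Agent.H450.HT.TwoThirteen
import Cfsg.Agent.H5.HT.Seven
import Cfsg.Agent.H789.HT.PThreeFinal

/-!
# The inputs of the soluble coprime case of S3577: all proved (helper192)
-/

set_option autoImplicit false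

namespace Cfsg.Agent.H192.Ht

open Cfsg.Agent.H828.HT
open Cfsg.Agent.H662.HT

universe u

theorem leaves : Leaves.{u} where
  full_false := by
    intro p _ V _ _ _ G N hN hn hcop h s a hh h2 H hF big
    exact Cfsg.Agent.H662.HT.full_false hN hn hcop hh h2 H hF big
  two_three := by
    intro p _ V _ _ _ G N hN hn hcop h a hh h2 H hz ha
    exact Cfsg.Agent.H662.HT.two_three hN hn hcop hh h2 H hz ha
  exists_field := by
    intro p _ V _ _ _ _ G A hirr hAG hA hAc hhom
    exact Cfsg.Agent.H768.HT.exists_field hirr hAG hA hAc hhom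
  semilinear_case := by
    intro p _ V _ _ _ _ G A hAG hcop hself hAc K _ _ χ σ hK h hh h2
    exact Cfsg.Agent.H813.HT.semilinear_case hAG hcop hself hAc hK hh h2
  e_two_size := by
    intro p _ V _ _ _ _ G A F K _ _ χ σ E hK hp hcop h hh h2
    exact Cfsg.Agent.H451.HT.e_two_size_of E hK hp hh h2
      (Cfsg.Agent.H583.HT.count_two_lin E hK hp hcop)
      (fun q₀ hq => Cfsg.Agent.H583.HT.count_two_semi E hK hp hcop hq)
      (fun y hy hy2 hfix => Cfsg.Agent.H583.HT.card_two E hK hp hcop hy hy2 hfix)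
      (Cfsg.Agent.H583.HT.count_three_lin E hK hp hcop)
      (fun y hy hfix hσ => Cfsg.Agent.H583.HT.card_three E hK hp hcop hy hfix hσ)
      (fun q₀ hq => Cfsg.Agent.H583.HT.count_three_semi E hK hp hcop hq)
      (fun r hr h5 y hy hfix => Cfsg.Agent.H583.HT.no_big_lin E hK hr h5 hy hfix)
      (fun r hr h5 q₀ hq => Cfsg.Agent.H583.HT.count_big_semi E hK hp hcop hr h5 hq)
  e_two_thirteen := by
    intro p _ V _ _ _ _ G A F K _ _ χ σ E hK hp hV hcop h hh h2
    exact Cfsg.Agent.H450.HT.e_two_thirteen E hK hp hV hcop hh h2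
  e_two_five := by
    intro p _ V _ _ _ _ G A F K _ _ χ σ E hK hp hV hKc hcop h hh h2
    exact Cfsg.Agent.H450.HT.e_two_five E hK hp hV hKc hcop hh h2
  e_two_seven := by
    intro p _ V _ _ _ _ G A F K _ _ χ σ E hK hp hV hKc hcop h hh h2
    exact Cfsg.Agent.H5.HT.e_two_seven E hK hp hV hKc hcop hh h2
  e_two_eleven := by
    intro p _ V _ _ _ _ G A F K _ _ χ σ E hK hp hV hKc hcop h hh h2
    exact Cfsg.Agent.H5.HT.e_two_eleven E hK hp hV hKc hcop hh h2
  p_three := by
    intro W _ _ _ _ _ G A E hAG hEG hcop h hh h2 hnA hnE hcyc hAE hC H hz h4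
    exact Cfsg.Agent.H789.HT.p_three hEG hcop hh h2 hnA hnE hcyc h4 hAE hC H hz

end Cfsg.Agent.H192.Ht
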